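import Cfsg.Agent.TwoF.DC.Close
import Cfsg.Agent.TwoF.DC.TFG.F2.Rank
import Cfsg.Agent.TwoF.DC.TFG.F2.Cod
import Cfsg.Agent.TwoF.Gen.BCub
import Cfsg.Agent.S2114
import Cfsg.Agent.S2128

/-!
# TwoF, `²F₄(q)` in characteristic two: the row (helper88)
-/

set_option autoImplicit false

namespace Cfsg.Agent.TwoF.DC.TF

open Cfsg Cfsg.Lie Cfsg.Agent.TwoF.Gen Subgroup

theorem F2.row {K : Type} [Field K] [Fintype K] {m : ℕ} (hm : 1 ≤ m) (hK : Fintype.card K = 2 ^ (2 * m + 1)) :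
    Row 2 ↥(twistedF4 K (2 ^ m)) := by
  have hout : ¬ 2 ∣ Nat.card (Out ↥(twistedF4 K (2 ^ m))) := by
    rw [S2128.result hm hK]; omega
  refine ⟨row88_of_sit fun Y _ _ V _ _ _ L ρ π φ H A hA => ⟨A, hA, by_contra fun hn => ?_⟩, row89_of_not_dvd hout⟩
  have hL := H.toFrm.le_of_not_dvd (elemAb_isPGroup hA.1) hout
  have hZ := Nat.dvd_one.1 (H.toFrm.card_center_dvd' H.toStp.perfect (S2114.result hm hK))
  have hπ : Function.Injective π := by
    rw [← MonoidHom.ker_eq_bot_iff, H.toFrm.ker_π]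
    exact card_eq_one.1 hZ
  let e := MulEquiv.ofBijective π ⟨hπ, H.toFrm.surj⟩
  let j : ↥(twistedF4 K (2 ^ m)) →* Y := L.subtype.comp e.symm.toMonoidHom
  have hj : Function.Injective j := L.subtype_injective.comp e.symm.injective
  have hA' : (A.comap j).map j = A := map_comap_eq_self fun a ha => ⟨e ⟨a, hL ha⟩, by simp [j]⟩
  have := Cfsg.Agent.ChevalleyStructure.TwF4.Twisted.charP_two hK
  obtain ⟨ψ, hψ⟩ := Cfsg.Agent.ChevalleyStructure.TwF4.TwistedFix.exists_rln hK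
  have hK' : Nat.card K = 2 ^ (2 * m + 1) := by rw [Nat.card_eq_fintype_card, hK]
  have hF : ∃ c : Kˣ, c ≠ 1 := by
    have h1 : 1 < Nat.card Kˣ := by
      rw [Nat.card_units, hK']
      have : 2 ^ 3 ≤ 2 ^ (2 * m + 1) := Nat.pow_le_pow_right (by norm_num) (by omega)
      omega
    have : Nontrivial Kˣ := Finite.one_lt_card_iff_nontrivial.1 h1
    exact exists_ne 1
  have h2 : ∀ a ∈ A.comap j, a * a = 1 := fun a ha => hj (by
    rw [map_mul, map_one, ← pow_two]; exact hA.1.2 _ ha)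
  have h1 := F2.card_le_five (KFacts.TwF4.Inst.full hK hψ) hF rfl (A := A.comap j)
    (fun a ha b hb => hj (by rw [map_mul, map_mul]; exact elemAb_comm hA.1 ha hb)) h2
  rw [← card_map_of_injective hj, hA', hK', ← pow_mul] at h1
  obtain ⟨⟨d, hd⟩, hd1⟩ := ne_bot_iff_exists_ne_one.1 hA.2.1
  obtain ⟨d', hd', rfl⟩ := hA'.ge hd
  have h3 := F2.ten_le hm hK (ρ.comp j) (H.toStp.faithful.comp hj) (h2 d' hd') fun h =>
    hd1 (Subtype.ext (by show j d' = 1; rw [h, map_one]))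
  rw [cod_comp, MonoidHom.map_zpowers] at h3
  have h4 := cod_add_three_le_of_not_cub hA.1 hn hd
  have h5 := hA.2.2.trans (Nat.pow_le_pow_left h1 2)
  rw [← pow_mul, Nat.pow_le_pow_iff_right (by norm_num)] at h5
  omega

/-- **the large Ree groups in characteristic two** -/
theorem tf4 : TBox fun p S _ => p = 2 ∧ Lie.Iso2F4 S := by
  rintro p _ S _ _ _ ⟨rfl, K, _, _, m, hm, hK, ⟨e⟩⟩
  exact (F2.row hm hK).of_equiv e

end Cfsg.Agent.TwoF.DC.TF
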